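import Mathlib
import Cfsg.Prelude.Def_OddOrderLocal

/-!
# Project TIH (S4118): pi-separable groups with a TI subgroup that is Hall in its normalizer

Interface (package statements as `Prop`s).  Coordinator: helper51.

Notation: `N = Subgroup.normalizer (H : Set G)`, `O` = the largest normal subgroup of order
coprime to `|H|`.
-/

set_option autoImplicit false

namespace Cfsg.Agent.Lib.Helper51.TIH

universe u

/-- `O` is normal, of order coprime to `|H|`, and contains every normal subgroup of order coprime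
to `|H|`. -/
def IsCore {G : Type u} [Group G] (H O : Subgroup G) : Prop :=
  O.Normal ∧ (Nat.card O).Coprime (Nat.card H) ∧
    ∀ K : Subgroup G, K.Normal → (Nat.card K).Coprime (Nat.card H) → K ≤ O

/-- the separability hypothesis of S4118. -/
def IsSep {G : Type u} [Group G] (H : Subgroup G) : Prop :=
  ∃ (n : ℕ) (M : Fin (n + 1) → Subgroup G), M 0 = ⊥ ∧ M (Fin.last n) = ⊤ ∧ Monotone M ∧
    (∀ i, (M i).Normal) ∧
    ∀ i : Fin n, (∀ q : ℕ, q.Prime → q ∣ (M i.castSucc).relIndex (M i.succ) → q ∣ Nat.card H) ∨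
      ((M i.castSucc).relIndex (M i.succ)).Coprime (Nat.card H)

/-- a normal subgroup `F > O` with `F/O` a `π(H)`-group. -/
def HasF {G : Type u} [Group G] (H O : Subgroup G) : Prop :=
  ∃ F : Subgroup G, F.Normal ∧ O ≤ F ∧ O ≠ F ∧
    ∀ q : ℕ, q.Prime → q ∣ O.relIndex F → q ∣ Nat.card H

/-- `H` acts on `O` (by conjugation) so that all nonidentity elements of `H` have the same
centralizer in `O`, and `H` does not centralize `O`. -/
def IsSemiFpf {G : Type u} [Group G] (H O : Subgroup G) : Prop :=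
  (∀ h ∈ H, h ≠ 1 → ∀ x ∈ O, x * h = h * x → ∀ h' ∈ H, x * h' = h' * x) ∧
    ∃ h ∈ H, ∃ x ∈ O, x * h ≠ h * x

/-- an `H`-invariant section `X/Y` on which every nonidentity element of `H` acts
fixed-point-freely. -/
def HasFpfSection {G : Type u} [Group G] (H : Subgroup G) : Prop :=
  ∃ X Y : Subgroup G, Y ≤ X ∧ H ≤ Subgroup.normalizer (X : Set G) ∧
    H ≤ Subgroup.normalizer (Y : Set G) ∧ X ≤ Subgroup.normalizer (Y : Set G) ∧ Y ≠ X ∧
    ∀ h ∈ H, h ≠ 1 → ∀ x ∈ X, h * x * h⁻¹ * x⁻¹ ∈ Y → x ∈ Y

/-- `H` (a group) has a fixed-point-free action on a nontrivial finite group. -/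
def IsFpfGrp (H : Type u) [Group H] : Prop :=
  ∃ (K : Type u) (_ : Group K) (_ : Finite K) (ρ : H →* MulAut K), Nontrivial K ∧
    ∀ h : H, h ≠ 1 → ∀ k : K, ρ h k = k → k = 1

/-- all Sylow subgroups are cyclic or generalized quaternion. -/
def SylCQ (H : Type u) [Group H] : Prop :=
  ∀ (p : ℕ) [Fact p.Prime] (P : Sylow p H),
    IsCyclic P ∨ ∃ n : ℕ, Nonempty (P ≃* QuaternionGroup (2 ^ n))

/-! ## The packages -/

/-- [O] the join of the normal subgroups of order coprime to `|H|` is one of them. -/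
def PkgO : Prop :=
  ∀ (G : Type u) [Group G] [Finite G] (H O : Subgroup G),
    O = sSup {K : Subgroup G | K.Normal ∧ (Nat.card K).Coprime (Nat.card H)} → IsCore H O

/-- [HALL] a TI subgroup that is a Hall subgroup of its normalizer is a Hall subgroup. -/
def PkgHall : Prop :=
  ∀ (G : Type u) [Group G] [Finite G] (H : Subgroup G), Cfsg.IsTISubset (H : Set G) →
    (Nat.card H).Coprime (H.subgroupOf (Subgroup.normalizer (H : Set G))).index →
    (Nat.card H).Coprime H.index

/-- [F] separability gives a normal `F > O` with `F/O` a `π(H)`-group. -/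
def PkgF : Prop :=
  ∀ (G : Type u) [Group G] [Finite G] (H O : Subgroup G), IsCore H O → IsSep H → H ≠ ⊥ →
    HasF H O

/-- [ON] `G = O N_G(H)`. -/
def PkgON : Prop :=
  ∀ (G : Type u) [Group G] [Finite G] (H O : Subgroup G), Cfsg.IsTISubset (H : Set G) →
    (Nat.card H).Coprime H.index → O.Normal → (Nat.card O).Coprime (Nat.card H) → HasF H O →
    O ⊔ Subgroup.normalizer (H : Set G) = ⊤

/-- [NORMAL] `O H` is normal. -/
def PkgNormal : Prop :=
  ∀ (G : Type u) [Group G] [Finite G] (H O : Subgroup G), O.Normal →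
    O ⊔ Subgroup.normalizer (H : Set G) = ⊤ → (O ⊔ H).Normal

/-- [FWD] a solvable group has no subgroup isomorphic to `SL(2,5)`. -/
def PkgFwd : Prop :=
  ∀ (G : Type u) [Group G] [Finite G], Group.IsSolvable G →
    ∀ K : Subgroup G, ¬ Nonempty (K ≃* Matrix.SpecialLinearGroup (Fin 2) (ZMod 5))

/-- [ACT] the action of `H` on `O`. -/
def PkgAct : Prop :=
  ∀ (G : Type u) [Group G] [Finite G] (H O : Subgroup G), Cfsg.IsTISubset (H : Set G) →
    ¬ H.Normal → O.Normal → (Nat.card O).Coprime (Nat.card H) →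
    O ⊔ Subgroup.normalizer (H : Set G) = ⊤ → IsSemiFpf H O

/-- [SEC-A] a fixed-point-free section inside a solvable `O`. -/
def PkgSecA : Prop :=
  ∀ (G : Type u) [Group G] [Finite G] (H O : Subgroup G), O.Normal → Group.IsSolvable O →
    (Nat.card O).Coprime (Nat.card H) → IsSemiFpf H O → HasFpfSection H

/-- [SEC-B] a fixed-point-free section gives a fixed-point-free action on a group. -/
def PkgSecB : Prop :=
  ∀ (G : Type u) [Group G] [Finite G] (H : Subgroup G), HasFpfSection H → IsFpfGrp H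

/-- [SOLVH] a group with a fixed-point-free action and no subgroup `SL(2,5)` is solvable
(Zassenhaus, S0690). -/
def PkgSolvH : Prop :=
  ∀ (H : Type u) [Group H] [Finite H], IsFpfGrp H →
    (∀ R : Subgroup H, ¬ Nonempty (R ≃* Matrix.SpecialLinearGroup (Fin 2) (ZMod 5))) →
    Group.IsSolvable H

/-- [SYL] Sylow subgroups of a group with a fixed-point-free action. -/
def PkgSyl : Prop :=
  ∀ (H : Type u) [Group H] [Finite H], IsFpfGrp H → SylCQ H

/-- [AUT-P] coprime automorphisms of a cyclic or generalized quaternion `p`-group: the derived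
group acts trivially. -/
def PkgAutP : Prop :=
  ∀ (G : Type u) [Group G] [Finite G] (T A : Subgroup G) (p : ℕ) [Fact p.Prime],
    A ≤ Subgroup.normalizer (T : Set G) → IsPGroup p T → ¬ p ∣ Nat.card A →
    (IsCyclic T ∨ ∃ n : ℕ, Nonempty (T ≃* QuaternionGroup (2 ^ n))) →
    ⁅A, A⁆ ≤ Subgroup.centralizer (T : Set G)

/-- [AUT] coprime automorphisms of a solvable group with cyclic or quaternion Sylow subgroups:
the derived group acts trivially. -/
def PkgAut : Prop :=
  ∀ (G : Type u) [Group G] [Finite G] (H A : Subgroup G),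
    A ≤ Subgroup.normalizer (H : Set G) → (Nat.card A).Coprime (Nat.card H) →
    Group.IsSolvable H → SylCQ H → ⁅A, A⁆ ≤ Subgroup.centralizer (H : Set G)

/-- [QUOT] `G / O H` is abelian. -/
def PkgQuot : Prop :=
  ∀ (G : Type u) [Group G] [Finite G] (H O : Subgroup G), IsCore H O →
    O ⊔ Subgroup.normalizer (H : Set G) = ⊤ → (O ⊔ H).Normal →
    (Nat.card H).Coprime (H.subgroupOf (Subgroup.normalizer (H : Set G))).index →
    (∀ A : Subgroup G, A ≤ Subgroup.normalizer (H : Set G) →
      (Nat.card A).Coprime (Nat.card H) → ⁅A, A⁆ ≤ Subgroup.centralizer (H : Set G)) →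
    commutator G ≤ O ⊔ H

/-- [EXT] solvability of `G` from `O`, `H` and `G / O H` abelian. -/
def PkgExt : Prop :=
  ∀ (G : Type u) [Group G] [Finite G] (H O : Subgroup G), O.Normal → Group.IsSolvable O →
    Group.IsSolvable H → commutator G ≤ O ⊔ H → Group.IsSolvable G

end Cfsg.Agent.Lib.Helper51.TIH
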