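import Cfsg.Agent.Lib.Helper51.TIH.Defs

/-!
# Project TIH (S4118): the assembly of the statement from the packages
-/

set_option autoImplicit false

namespace Cfsg.Agent.Lib.Helper51.TIH

universe u

/-- S4118 from the packages. -/
theorem s4118_of (hO : PkgO.{u}) (hHall : PkgHall.{u}) (hF : PkgF.{u}) (hON : PkgON.{u})
    (hNormal : PkgNormal.{u}) (hFwd : PkgFwd.{u}) (hAct : PkgAct.{u}) (hSecA : PkgSecA.{u})
    (hSecB : PkgSecB.{u}) (hSolvH : PkgSolvH.{u}) (hSyl : PkgSyl.{u}) (hAut : PkgAut.{u})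
    (hQuot : PkgQuot.{u}) (hExt : PkgExt.{u})
    {G : Type u} [Group G] [Finite G] (H : Subgroup G)
    (hTI : Cfsg.IsTISubset (H : Set G)) (hnn : ¬ H.Normal)
    (hHall' : (Nat.card H).Coprime (H.subgroupOf (Subgroup.normalizer (H : Set G))).index)
    (hsep : ∃ (n : ℕ) (M : Fin (n + 1) → Subgroup G), M 0 = ⊥ ∧ M (Fin.last n) = ⊤ ∧ Monotone M ∧ (∀ i, (M i).Normal) ∧
      ∀ i : Fin n, (∀ q : ℕ, q.Prime → q ∣ (M i.castSucc).relIndex (M i.succ) → q ∣ Nat.card H) ∨
        ((M i.castSucc).relIndex (M i.succ)).Coprime (Nat.card H))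
    (O : Subgroup G) (hOdef : O = sSup {K : Subgroup G | K.Normal ∧ (Nat.card K).Coprime (Nat.card H)}) :
    O ⊔ Subgroup.normalizer (H : Set G) = ⊤ ∧ (O ⊔ H).Normal ∧
    (Group.IsSolvable G ↔ Group.IsSolvable O ∧
      ∀ K : Subgroup G, K ≤ H → ¬ Nonempty (K ≃* Matrix.SpecialLinearGroup (Fin 2) (ZMod 5))) := by
  have hcore : IsCore H O := hO G H O hOdef
  obtain ⟨hOn, hOc, hOmax⟩ := hcore
  have hHne : H ≠ ⊥ := by
    rintro rfl
    exact hnn inferInstance
  have hH : (Nat.card H).Coprime H.index := hHall G H hTI hHall'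
  have hFex : HasF H O := hF G H O ⟨hOn, hOc, hOmax⟩ hsep hHne
  have hON' : O ⊔ Subgroup.normalizer (H : Set G) = ⊤ := hON G H O hTI hH hOn hOc hFex
  have hNorm : (O ⊔ H).Normal := hNormal G H O hOn hON'
  refine ⟨hON', hNorm, ?_, ?_⟩
  · intro hsolv
    exact ⟨inferInstance, fun K _ => hFwd G hsolv K⟩
  · rintro ⟨hOsolv, hno⟩
    have hact : IsSemiFpf H O := hAct G H O hTI hnn hOn hOc hON'
    have hsec : HasFpfSection H := hSecA G H O hOn hOsolv hOc hact
    have hfpf : IsFpfGrp H := hSecB G H hsec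
    have hHsolv : Group.IsSolvable H := by
      refine hSolvH H hfpf ?_
      rintro R ⟨e⟩
      refine hno (R.map H.subtype) (Subgroup.map_subtype_le R) ⟨?_⟩
      exact (R.equivMapOfInjective H.subtype H.subtype_injective).symm.trans e
    have hsyl : SylCQ H := hSyl H hfpf
    have hq : commutator G ≤ O ⊔ H :=
      hQuot G H O ⟨hOn, hOc, hOmax⟩ hON' hNorm hHall'
        (fun A hA hAc => hAut G H A hA hAc hHsolv hsyl)
    exact hExt G H O hOn hOsolv hHsolv hq

end Cfsg.Agent.Lib.Helper51.TIH
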