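import Mathlib
import Cfsg.Agent.Lib.Helper51.TIH.Defs

/-!
# Project TIH (S4118), package [SEC-A]: a fixed-point-free section inside a solvable `O`
-/

set_option autoImplicit false

namespace Cfsg.Agent.Lib.Helper51.TIH

universe u

open scoped commutatorElement

/-- the derived series of a subgroup, as subgroups of the ambient group. -/
def dser {G : Type u} [Group G] (O : Subgroup G) : ℕ → Subgroup G
  | 0 => O
  | n + 1 => ⁅dser O n, dser O n⁆

theorem dser_normal {G : Type u} [Group G] (O : Subgroup G) [hO : O.Normal] (n : ℕ) :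
    (dser O n).Normal := by
  induction n with
  | zero => exact hO
  | succ n ih =>
    have := ih
    exact Subgroup.commutator_normal _ _

theorem dser_succ_le {G : Type u} [Group G] (O : Subgroup G) (n : ℕ) :
    dser O (n + 1) ≤ dser O n := by
  change ⁅dser O n, dser O n⁆ ≤ dser O n
  rw [Subgroup.commutator_le]
  intro a ha b hb
  rw [commutatorElement_def]
  exact (dser O n).mul_mem ((dser O n).mul_mem ((dser O n).mul_mem ha hb)
    ((dser O n).inv_mem ha)) ((dser O n).inv_mem hb)

theorem dser_le {G : Type u} [Group G] (O : Subgroup G) (n : ℕ) : dser O n ≤ O := by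
  induction n with
  | zero => exact le_rfl
  | succ n ih => exact (dser_succ_le O n).trans ih

theorem dser_eq_map {G : Type u} [Group G] (O : Subgroup G) (n : ℕ) :
    dser O n = (derivedSeries O n).map O.subtype := by
  induction n with
  | zero =>
    change O = (⊤ : Subgroup O).map O.subtype
    rw [← MonoidHom.range_eq_map, Subgroup.range_subtype]
  | succ n ih =>
    change ⁅dser O n, dser O n⁆ = _
    rw [derivedSeries_succ, Subgroup.map_commutator, ← ih]

theorem exists_dser_eq_bot {G : Type u} [Group G] (O : Subgroup G) [h : Group.IsSolvable O] :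
    ∃ k, dser O k = ⊥ := by
  obtain ⟨k, hk⟩ := h.solvable
  exact ⟨k, by rw [dser_eq_map, hk, Subgroup.map_bot]⟩

theorem exists_step (P : ℕ → Prop) (k : ℕ) (h0 : ¬ P 0) (hk : P k) :
    ∃ i, ¬ P i ∧ P (i + 1) := by
  induction k with
  | zero => exact absurd hk h0
  | succ k ih =>
    by_cases h : P k
    · exact ih h
    · exact ⟨k, h, hk⟩

/-- [SEC-A] -/
theorem pkgSecA : PkgSecA.{u} := by
  intro G _ _ H O hOn hOsolv hcop ⟨hsemi, h, hh, x0, hx0, hne⟩
  have := hOn
  obtain ⟨k, hk⟩ := exists_dser_eq_bot O
  have h0 : ¬ dser O 0 ≤ Subgroup.centralizer (H : Set G) := by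
    intro hle
    have := Subgroup.mem_centralizer_iff.mp (hle (show x0 ∈ dser O 0 from hx0)) h hh
    exact hne this.symm
  have hkc : dser O k ≤ Subgroup.centralizer (H : Set G) := by
    rw [hk]; exact bot_le
  obtain ⟨i, hi, hi1⟩ := exists_step (fun j => dser O j ≤ Subgroup.centralizer (H : Set G)) k h0 hkc
  set X := dser O i with hX
  set N' := dser O (i + 1) with hN'
  have hN'X : N' ≤ X := dser_succ_le O i
  have hXO : X ≤ O := dser_le O i
  have hXn : X.Normal := dser_normal O i
  set Y := N' ⊔ (X ⊓ Subgroup.centralizer (H : Set G)) with hY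
  have hYX : Y ≤ X := sup_le hN'X inf_le_left
  have hYC : Y ≤ Subgroup.centralizer (H : Set G) := sup_le hi1 inf_le_right
  refine ⟨X, Y, hYX, ?_, ?_, ?_, ?_, ?_⟩
  · rw [Subgroup.normalizer_eq_top_iff.mpr hXn]; exact le_top
  · intro g hg
    rw [Subgroup.mem_normalizer_iff]
    intro y
    have key : ∀ z ∈ Y, g * z * g⁻¹ = z := by
      intro z hz
      have := Subgroup.mem_centralizer_iff.mp (hYC hz) g hg
      rw [this, mul_inv_cancel_right]
    constructor
    · intro hy
      rw [key y hy]; exact hy
    · intro hy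
      have := key _ hy
      have h2 : g * y * g⁻¹ = y := by
        have h3 : g⁻¹ * (g * (g * y * g⁻¹) * g⁻¹) * g = g⁻¹ * (g * y * g⁻¹) * g := by rw [this]
        simpa [mul_assoc] using h3
      rw [← h2]; exact hy
  · intro g hg
    rw [Subgroup.mem_normalizer_iff]
    have key : ∀ g ∈ X, ∀ y ∈ Y, g * y * g⁻¹ ∈ Y := by
      intro g hg y hy
      have hc : ⁅g, y⁆ ∈ N' := Subgroup.commutator_mem_commutator hg (hYX hy)
      have : g * y * g⁻¹ = ⁅g, y⁆ * y := by
        rw [commutatorElement_def]; group
      rw [this]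
      exact Y.mul_mem (le_sup_left (a := N') hc) hy
    intro y
    constructor
    · exact key g hg y
    · intro hy
      have := key g⁻¹ (X.inv_mem hg) _ hy
      simpa [mul_assoc] using this
  · intro hYeq
    exact hi (hYeq ▸ hYC)
  · intro g hg hg1 x hx hw
    obtain ⟨w, hwdef⟩ : ∃ w, w = g * x * g⁻¹ * x⁻¹ := ⟨_, rfl⟩
    rw [← hwdef] at hw
    have hwc : g * w = w * g := Subgroup.mem_centralizer_iff.mp (hYC hw) g hg
    have hconj : g * x * g⁻¹ = w * x := by rw [hwdef]; group
    have hpow : ∀ j : ℕ, g ^ j * x * (g ^ j)⁻¹ = w ^ j * x := by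
      intro j
      induction j with
      | zero => simp
      | succ j ih =>
        have h1 : g ^ (j + 1) * x * (g ^ (j + 1))⁻¹ = g * (g ^ j * x * (g ^ j)⁻¹) * g⁻¹ := by
          rw [pow_succ']; group
        have h3 : g * w ^ j * g⁻¹ = w ^ j := by
          have hc : Commute g (w ^ j) := (show Commute g w from hwc).pow_right j
          rw [hc.eq, mul_inv_cancel_right]
        calc g ^ (j + 1) * x * (g ^ (j + 1))⁻¹ = g * (w ^ j * x) * g⁻¹ := by rw [h1, ih]
          _ = (g * w ^ j * g⁻¹) * (g * x * g⁻¹) := by group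
          _ = w ^ j * (w * x) := by rw [h3, hconj]
          _ = w ^ (j + 1) * x := by rw [pow_succ, mul_assoc]
    have hwm : w ^ orderOf g = 1 := by
      have h5 := hpow (orderOf g)
      rw [pow_orderOf_eq_one, one_mul, inv_one, mul_one] at h5
      have h6 : w ^ orderOf g * x = 1 * x := by rw [one_mul]; exact h5.symm
      exact mul_right_cancel h6
    have hwO : w ∈ O := hXO (hYX hw)
    have hd1 : orderOf w ∣ orderOf g := orderOf_dvd_of_pow_eq_one hwm
    have hd2 : orderOf w ∣ Nat.card O := Subgroup.orderOf_dvd_natCard O hwO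
    have hd3 : orderOf g ∣ Nat.card H := Subgroup.orderOf_dvd_natCard H hg
    have hw1 : w = 1 := by
      have : orderOf w ∣ 1 := by
        have := Nat.dvd_gcd hd2 (hd1.trans hd3)
        rwa [Nat.Coprime.gcd_eq_one hcop] at this
      exact orderOf_eq_one_iff.mp (Nat.dvd_one.mp this)
    have hcomm : x * g = g * x := by
      have : g * x * g⁻¹ = x := by rw [hconj, hw1, one_mul]
      have h4 : g * x * g⁻¹ * g = x * g := by rw [this]
      rw [← h4]; group
    have hall := hsemi g hg hg1 x (hXO hx) hcomm
    have hxc : x ∈ Subgroup.centralizer (H : Set G) := by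
      rw [Subgroup.mem_centralizer_iff]
      intro h' hh'
      exact (hall h' hh').symm
    exact le_sup_right (a := N') (Subgroup.mem_inf.mpr ⟨hx, hxc⟩)

end Cfsg.Agent.Lib.Helper51.TIH
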